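import Cfsg.Agent.H776.ThCtx
import Cfsg.Agent.H587.TO.Orb
import Mathlib.GroupTheory.QuotientGroup.Basic

/-!
Two consequences of `transvection_orbit` for the contexts `Ctx Q A` of helper776 (S5228).
-/

set_option autoImplicit false

namespace Cfsg.Agent.H38.ThT1

open Subgroup Cfsg.Agent.H776.ThS

/-- the subgroup of `MulAut Q` of a context -/
def autG {G : Type*} [Group G] {Q : Subgroup G} {A : Set (G → G)} (h : Ctx Q A) : Subgroup (MulAut Q) where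
  carrier := {α | ∃ f ∈ A, ∀ x : Q, (α x : G) = f x}
  mul_mem' := by
    rintro α β ⟨f, hf, h1⟩ ⟨g, hg, h2⟩
    refine ⟨_, h.comp f hf g hg, fun x => ?_⟩
    rw [MulAut.mul_apply, h1, h2]
  one_mem' := ⟨_, h.id_mem, fun x => rfl⟩
  inv_mem' := by
    rintro α ⟨f, hf, h1⟩
    obtain ⟨g, hg, h2⟩ := h.inv f hf
    refine ⟨g, hg, fun x => ?_⟩
    have h3 : α (α⁻¹ x) = x := by rw [← MulAut.mul_apply, mul_inv_cancel, MulAut.one_apply]
    have h4 := (h2 (α⁻¹ x : Q) (α⁻¹ x : Q).2).1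
    rw [← h1, h3] at h4
    exact h4.symm

theorem mem_autG {G : Type*} [Group G] {Q : Subgroup G} {A : Set (G → G)} {h : Ctx Q A} {α : MulAut Q} :
    α ∈ autG h ↔ ∃ f ∈ A, ∀ x : Q, (α x : G) = f x := Iff.rfl

theorem exists_aut {G : Type*} [Group G] {Q : Subgroup G} {A : Set (G → G)} (h : Ctx Q A) {f : G → G} (hf : f ∈ A) :
    ∃ α : autG h, ∀ x : Q, ((α : MulAut Q) x : G) = f x := by
  let φ : Q →* Q :=
    { toFun := fun x => ⟨f x, h.maps f hf x x.2⟩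
      map_one' := Subtype.ext (h.one hf)
      map_mul' := fun x y => Subtype.ext (h.mul f hf x x.2 y y.2) }
  have hφ : Function.Bijective φ := by
    constructor
    · intro x y hxy
      exact Subtype.ext (h.inj hf x.2 y.2 (congrArg Subtype.val hxy))
    · intro y
      obtain ⟨g, hg, h1⟩ := h.inv f hf
      exact ⟨⟨g y, h.maps g hg y y.2⟩, Subtype.ext (h1 y y.2).2⟩
  exact ⟨⟨MulEquiv.ofBijective φ hφ, f, hf, fun x => rfl⟩, fun x => rfl⟩

/-- the non-inner 3-elements coming from the normalizer, and their conjugates -/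
def BB {G : Type*} [Group G] {Q : Subgroup G} {A : Set (G → G)} (h : Ctx Q A) : Set (autG h) :=
  {b | ∃ a : autG h, ∃ n ∈ normalizer (Q : Set G), n ∉ Q ∧
    ∀ x : Q, (((a⁻¹ * b * a : autG h) : MulAut Q) x : G) = n * x * n⁻¹}

theorem BB_conj {G : Type*} [Group G] {Q : Subgroup G} {A : Set (G → G)} (h : Ctx Q A) :
    ∀ b ∈ BB h, ∀ a, a * b * a⁻¹ ∈ BB h := by
  rintro b ⟨c, n, hn, hnQ, h1⟩ a
  refine ⟨a * c, n, hn, hnQ, ?_⟩
  have h2 : (a * c)⁻¹ * (a * b * a⁻¹) * (a * c) = c⁻¹ * b * c := by group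
  rw [h2]
  exact h1

/-- an element of the context realising a member of `autG` -/
theorem exists_fun {G : Type*} [Group G] {Q : Subgroup G} {A : Set (G → G)} {h : Ctx Q A} (a : autG h) :
    ∃ f ∈ A, ∀ x : Q, ((a : MulAut Q) x : G) = f x := a.2

theorem BB_se {Q : Subgroup P} {A : Set (P → P)} (h : Ctx Q A) {W : Subgroup P} (hSE : SE Q A W) {u : autG h}
    (hu : u ∈ BB h) (hW : W ≤ Q) {a b : autG h}
    (h1 : ∀ w : Q, (w : P) ∈ W → ∃ w' : Q, (w' : P) ∈ W ∧ (u : MulAut Q) ((a : MulAut Q) w) = (a : MulAut Q) w')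
    (h2 : ∀ w : Q, (w : P) ∈ W → ∃ w' : Q, (w' : P) ∈ W ∧ (u : MulAut Q) ((b : MulAut Q) w) = (b : MulAut Q) w') :
    ∀ w : Q, (w : P) ∈ W → ∃ w' : Q, (w' : P) ∈ W ∧ (a : MulAut Q) w = (b : MulAut Q) w' := by
  obtain ⟨c, n, hn, hnQ, h3⟩ := hu
  obtain ⟨fa, hfa, h4⟩ := exists_fun a
  obtain ⟨fb, hfb, h5⟩ := exists_fun b
  obtain ⟨fu, hfu, h6⟩ := exists_fun u
  -- replace `a`, `b`, `u` by `c⁻¹ a`, `c⁻¹ b`, `c⁻¹ u c`
  obtain ⟨ga, hga, h7⟩ := exists_fun (c⁻¹ * a)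
  obtain ⟨gb, hgb, h8⟩ := exists_fun (c⁻¹ * b)
  have key : ∀ (d : autG h) (gd : P → P), (∀ x : Q, (((c⁻¹ * d : autG h) : MulAut Q) x : P) = gd x) →
      (∀ w : Q, (w : P) ∈ W → ∃ w' : Q, (w' : P) ∈ W ∧ (u : MulAut Q) ((d : MulAut Q) w) = (d : MulAut Q) w') →
      ∀ w ∈ W, ∃ w' ∈ W, n * gd w * n⁻¹ = gd w' := by
    intro d gd hgd hd w hw
    obtain ⟨w', hw', h9⟩ := hd ⟨w, hW hw⟩ hw
    refine ⟨w', hw', ?_⟩
    have h10 := h3 (((c⁻¹ * d : autG h) : MulAut Q) ⟨w, hW hw⟩)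
    rw [hgd] at h10
    change _ = n * gd w * n⁻¹ at h10
    rw [← h10, ← hgd w']
    congr 1
    change (((c⁻¹ * u * c : autG h) : MulAut Q) * ((c⁻¹ * d : autG h) : MulAut Q)) ⟨w, hW hw⟩ = _
    rw [← Subgroup.coe_mul]
    have h11 : c⁻¹ * u * c * (c⁻¹ * d) = c⁻¹ * (u * d) := by group
    rw [h11]
    change ((c⁻¹ : autG h) : MulAut Q) ((u : MulAut Q) ((d : MulAut Q) ⟨w, hW hw⟩)) =
      ((c⁻¹ : autG h) : MulAut Q) ((d : MulAut Q) w')
    rw [h9]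
  have h12 := hSE.conj h hn hnQ hga hgb (key a ga h7 h1) (key b gb h8 h2)
  intro w hw
  obtain ⟨w', hw', h13⟩ := h12 w hw
  refine ⟨⟨w', hW hw'⟩, hw', ?_⟩
  have h14 : ((c⁻¹ : autG h) : MulAut Q) ((a : MulAut Q) w) = ((c⁻¹ : autG h) : MulAut Q) ((b : MulAut Q) ⟨w', hW hw'⟩) := by
    apply Subtype.ext
    change ((((c⁻¹ * a : autG h) : MulAut Q) w : Q) : P) = ((((c⁻¹ * b : autG h) : MulAut Q) ⟨w', hW hw'⟩ : Q) : P)
    rw [h7, h8]
    exact h13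
  exact (((c⁻¹ : autG h) : MulAut Q)).injective h14

theorem u10_mem_N5 : u10 ∈ N5 := ⟨rfl, rfl, rfl, rfl, rfl⟩

theorem u9_mem_N5 : u9 ∈ N5 := ⟨rfl, rfl, rfl, rfl, rfl⟩

theorem u10_mem_Z1 : u10 ∈ Z1 := ⟨rfl, rfl, rfl, rfl, rfl, rfl, rfl, rfl, rfl⟩

theorem u10_comm (x : P) : u10 * x = x * u10 := by
  rw [N5_mul u10 x u10_mem_N5]
  congr 1
  ext <;> simp [cx, u10]

theorem u9_comm (x : P) : ∃ z ∈ Z1, u9 * x = x * u9 * z := by
  refine ⟨⟨0, 0, 0, 0, 0, 0, 0, 0, 0, x.x1⟩, ⟨rfl, rfl, rfl, rfl, rfl, rfl, rfl, rfl, rfl⟩, ?_⟩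
  rw [N5_mul u9 x u9_mem_N5, mul_assoc]
  congr 1
  rw [mulN _ _ ⟨rfl, rfl, rfl, rfl, rfl⟩]
  ext <;> simp [cx, u9]

theorem u10_pow (k : ℕ) : u10 ^ k = ⟨0, 0, 0, 0, 0, 0, 0, 0, 0, (k : ZMod 3)⟩ := by
  induction k with
  | zero => rw [pow_zero]; ext <;> simp [one_x1, one_x2, one_x3, one_x4, one_x5, one_x6, one_x7, one_x8, one_x9, one_x10]
  | succ k ih =>
    rw [pow_succ, ih, mulN _ _ u10_mem_N5]
    ext <;> simp [u10]

theorem u9_pow (k : ℕ) : u9 ^ k = ⟨0, 0, 0, 0, 0, 0, 0, 0, (k : ZMod 3), 0⟩ := by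
  induction k with
  | zero => rw [pow_zero]; ext <;> simp [one_x1, one_x2, one_x3, one_x4, one_x5, one_x6, one_x7, one_x8, one_x9, one_x10]
  | succ k ih =>
    rw [pow_succ, ih, mulN _ _ u9_mem_N5]
    ext <;> simp [u9]

theorem mem_Z1_iff {x : P} : x ∈ Z1 ↔ ∃ k : ℕ, x = u10 ^ k := by
  constructor
  · rintro ⟨h1, h2, h3, h4, h5, h6, h7, h8, h9⟩
    refine ⟨x.x10.val, ?_⟩
    rw [u10_pow]
    ext
    all_goals first | assumption | simp
  · rintro ⟨k, rfl⟩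
    exact pow_mem u10_mem_Z1 k

theorem mem_Z2_iff {x : P} : x ∈ Z2 ↔ ∃ i j : ℕ, x = u9 ^ i * u10 ^ j := by
  constructor
  · rintro ⟨h1, h2, h3, h4, h5, h6, h7, h8⟩
    refine ⟨x.x9.val, x.x10.val, ?_⟩
    rw [u10_pow, u9_pow, mulN _ _ ⟨rfl, rfl, rfl, rfl, rfl⟩]
    ext
    all_goals first | assumption | simp
  · rintro ⟨i, j, rfl⟩
    exact mul_mem (pow_mem (show u9 ∈ Z2 from ⟨rfl, rfl, rfl, rfl, rfl, rfl, rfl, rfl⟩) i)
      (pow_mem (show u10 ∈ Z2 from ⟨rfl, rfl, rfl, rfl, rfl, rfl, rfl, rfl⟩) j)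

theorem Z1_le_Z2 : Z1 ≤ Z2 := fun _ ⟨h1, h2, h3, h4, h5, h6, h7, h8, _⟩ => ⟨h1, h2, h3, h4, h5, h6, h7, h8⟩

theorem u10_cube : u10 ^ 3 = 1 := by
  rw [u10_pow]; rfl

theorem u9_cube : u9 ^ 3 = 1 := by
  rw [u9_pow]; rfl

theorem Z1_comm {z : P} (hz : z ∈ Z1) (x : P) : z * x = x * z := by
  obtain ⟨k, rfl⟩ := mem_Z1_iff.1 hz
  exact (Commute.pow_left (u10_comm x) k : Commute (u10 ^ k) x)

/-- integer powers of an element of exponent 3 as natural powers -/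
theorem exists_nat {M : Type*} [Group M] {w : M} (hw : w ^ 3 = 1) {x : M} (hx : x ∈ zpowers w) :
    ∃ k : ℕ, x = w ^ k := by
  have h1 : IsOfFinOrder w := isOfFinOrder_iff_pow_eq_one.2 ⟨3, by norm_num, hw⟩
  obtain ⟨k, hk⟩ := (h1.mem_powers_iff_mem_zpowers).2 hx
  exact ⟨k, hk.symm⟩

theorem t1z {Q : Subgroup P} {A : Set (P → P)} (h : Ctx Q A) (hSE : SE Q A Z1) (hmov : ∃ a ∈ A, a u10 ∉ Z1)
    {y r : P} (hy : y ∈ normalizer (Q : Set P)) (hyQ : y ∉ Q)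
    (hr : r ∈ closure {x | ∃ a ∈ A, x = a u10}) (hr3 : r ^ 3 = 1) (hyr : y * r = r * y)
    (hyv : ∀ a ∈ A, ∃ k : ℕ, y * a u10 * y⁻¹ = a u10 * r ^ k) :
    r ∈ Z1 ∧
    (∀ a ∈ A, a u10 ∉ Z1 → ∀ b ∈ A, ∃ i j : ℕ, b u10 = a u10 ^ i * u10 ^ j) ∧
    (∀ a ∈ A, a u10 ∉ Z1 → ∀ i j : ℕ, ∃ b ∈ A, ∃ k : ℕ, a u10 ^ i * u10 ^ j = b u10 ^ k) ∧
    (∀ n ∈ normalizer (Q : Set P), ∃ k : ℕ, n * y ^ k ∈ Q) := by
  have hu : u10 ∈ Q := h.cent _ fun q _ => u10_comm q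
  have hZ : Z1 ≤ Q := fun z hz => h.cent _ fun q _ => Z1_comm hz q
  have hrQ : r ∈ Q := by
    refine (closure_le Q).2 ?_ hr
    rintro _ ⟨a, ha, rfl⟩
    exact h.maps a ha _ hu
  set w : Q := ⟨u10, hu⟩ with hw
  have hwc : ∀ x : Q, w * x = x * w := fun x => Subtype.ext (u10_comm x)
  have hac : ∀ (a : autG h) (x : Q), (a : MulAut Q) w * x = x * (a : MulAut Q) w := by
    intro a x
    obtain ⟨x', rfl⟩ := (a : MulAut Q).surjective x
    rw [← map_mul, hwc, map_mul]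
  -- the elements of `autG` given by the normalizer
  have hcn : ∀ n ∈ normalizer (Q : Set P), ∃ c : autG h, ∀ x : Q, ((c : MulAut Q) x : P) = n * x * n⁻¹ :=
    fun n hn => exists_aut h (h.conj n hn)
  have hwA : ∀ a : autG h, ∃ f ∈ A, ((a : MulAut Q) w : P) = f u10 := by
    intro a
    obtain ⟨f, hf, h1⟩ := exists_fun a
    exact ⟨f, hf, h1 w⟩
  have hAw : ∀ f ∈ A, ∃ a : autG h, ((a : MulAut Q) w : P) = f u10 := by
    intro f hf
    obtain ⟨a, ha⟩ := exists_aut h hf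
    exact ⟨a, ha w⟩
  have hZw : ∀ x : Q, (x : P) ∈ Z1 ↔ x ∈ zpowers w := by
    intro x
    rw [mem_Z1_iff]
    constructor
    · rintro ⟨k, hk⟩
      exact ⟨(k : ℤ), Subtype.ext (by simpa using hk.symm)⟩
    · intro hx
      obtain ⟨k, hk⟩ := exists_nat (Subtype.ext u10_cube) hx
      exact ⟨k, by rw [hk]; rfl⟩
  obtain ⟨cy, hcy⟩ := hcn y hy
  have hmemB : ∀ n ∈ normalizer (Q : Set P), n ∉ Q → ∀ c : autG h,
      (∀ x : Q, ((c : MulAut Q) x : P) = n * x * n⁻¹) → c ∈ BB h := by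
    intro n hn hnQ c hc
    refine ⟨1, n, hn, hnQ, fun x => ?_⟩
    rw [inv_one, one_mul, mul_one]
    exact hc x
  obtain ⟨c1, c2, c3, c4⟩ := Cfsg.Agent.H587.TO.transvection_orbit (autG h).subtype (BB h) (BB_conj h) w
    (Subtype.ext u10_cube) (fun a b => hac a _)
    (by
      intro u hu a b ha hb
      have key : ∀ d : autG h, (autG h).subtype (u * d) w ∈ zpowers ((autG h).subtype d w) →
          ∀ v : Q, (v : P) ∈ Z1 → ∃ v' : Q, (v' : P) ∈ Z1 ∧ (u : MulAut Q) ((d : MulAut Q) v) = (d : MulAut Q) v' := by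
        intro d hd v hv
        obtain ⟨k, hk⟩ := hd
        obtain ⟨j, rfl⟩ := (hZw v).1 hv
        refine ⟨w ^ (k * j), (hZw _).2 ⟨_, rfl⟩, ?_⟩
        change ((d : MulAut Q) w) ^ k = (u : MulAut Q) ((d : MulAut Q) w) at hk
        change (u : MulAut Q) ((d : MulAut Q) (w ^ j)) = _
        rw [map_zpow, map_zpow, ← hk, ← zpow_mul, map_zpow]
      obtain ⟨v', hv', h2⟩ := BB_se h hSE hu hZ (key b hb) (key a ha) w ((hZw w).2 (mem_zpowers w))
      obtain ⟨k, hk⟩ := (hZw v').1 hv'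
      refine ⟨k, ?_⟩
      change ((a : MulAut Q) w) ^ k = (b : MulAut Q) w
      rw [← map_zpow, h2]
      exact congrArg _ hk)
    (by
      obtain ⟨f, hf, h1⟩ := hmov
      obtain ⟨a, ha⟩ := hAw f hf
      refine ⟨a, fun h2 => h1 ?_⟩
      rw [← ha]
      exact (hZw _).2 h2)
    cy (hmemB y hy hyQ cy hcy)
    (Subtype.ext (by
      change ((cy : MulAut Q) w : P) = u10
      rw [hcy]
      change y * u10 * y⁻¹ = u10
      rw [← u10_comm y, mul_inv_cancel_right]))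
    ⟨r, hrQ⟩ (Subtype.ext hr3)
    (by
      have h1 : r ∈ (closure (Set.range fun a : autG h => (autG h).subtype a w)).map Q.subtype := by
        rw [MonoidHom.map_closure]
        refine closure_mono ?_ hr
        rintro _ ⟨f, hf, rfl⟩
        obtain ⟨a, ha⟩ := hAw f hf
        exact ⟨_, ⟨a, rfl⟩, ha⟩
      obtain ⟨x, hx, hxr⟩ := h1
      have h2 : x = ⟨r, hrQ⟩ := Subtype.ext hxr
      rw [← h2]
      exact hx)
    (Subtype.ext (by
      change ((cy : MulAut Q) ⟨r, hrQ⟩ : P) = r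
      rw [hcy]
      change y * r * y⁻¹ = r
      rw [hyr, mul_inv_cancel_right]))
    (by
      intro a
      obtain ⟨f, hf, h1⟩ := hwA a
      obtain ⟨k, hk⟩ := hyv f hf
      refine ⟨k, Subtype.ext ?_⟩
      change ((cy : MulAut Q) ((a : MulAut Q) w) : P) = ((a : MulAut Q) w : P) * r ^ k
      rw [hcy, h1, hk])
  refine ⟨(hZw ⟨r, hrQ⟩).2 c1, ?_, ?_, ?_⟩
  · intro f hf hfZ g hg
    obtain ⟨a, ha⟩ := hAw f hf
    obtain ⟨b, hb⟩ := hAw g hg
    obtain ⟨i, j, hij⟩ := c2 _ ⟨a, rfl⟩ (fun h2 => hfZ (by rw [← ha]; exact (hZw _).2 h2)) b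
    refine ⟨i, j, ?_⟩
    have h3 := congrArg Subtype.val hij
    rw [← ha, ← hb]
    exact h3
  · intro f hf hfZ i j
    obtain ⟨a, ha⟩ := hAw f hf
    obtain ⟨b, hb⟩ := c3 _ ⟨a, rfl⟩ (fun h2 => hfZ (by rw [← ha]; exact (hZw _).2 h2)) i j
    obtain ⟨g, hg, h1⟩ := hwA b
    have h4 : ((autG h).subtype b w) ^ 3 = 1 := by
      rw [← map_pow, show w ^ 3 = 1 from Subtype.ext u10_cube, map_one]
    obtain ⟨k, hk⟩ := exists_nat h4 hb
    refine ⟨g, hg, k, ?_⟩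
    rw [← ha, ← h1]
    exact congrArg Subtype.val hk
  · intro n hn
    obtain ⟨cn, hcn'⟩ := hcn n hn
    have h1 : (autG h).subtype cn w = w := Subtype.ext (by
      change ((cn : MulAut Q) w : P) = u10
      rw [hcn']
      change n * u10 * n⁻¹ = u10
      rw [← u10_comm n, mul_inv_cancel_right])
    obtain ⟨k, hk⟩ := c4 cn (by rw [h1]; exact mem_zpowers w)
    refine ⟨k, ?_⟩
    by_contra h2
    apply hk
    refine hmemB (n * y ^ k) (mul_mem hn (pow_mem hy k)) h2 _ fun x => ?_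
    have h5 : ∀ (j : ℕ) (x : Q), (((cy ^ j : autG h) : MulAut Q) x : P) = y ^ j * x * (y ^ j)⁻¹ := by
      intro j
      induction j with
      | zero => intro x; simp
      | succ j ih =>
        intro x
        rw [pow_succ, Subgroup.coe_mul, MulAut.mul_apply, ih, hcy]
        group
    rw [Subgroup.coe_mul, MulAut.mul_apply, hcn', h5]
    group

/-- the action of automorphisms on a quotient by an invariant normal subgroup -/
theorem exists_quot {Q : Type*} [Group Q] (N : Subgroup Q) [N.Normal] (A : Subgroup (MulAut Q))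
    (hA : ∀ a ∈ A, ∀ x ∈ N, a x ∈ N) :
    ∃ ρ : A →* MulAut (Q ⧸ N), ∀ (a : A) (x : Q), ρ a (x : Q ⧸ N) = (((a : MulAut Q) x : Q) : Q ⧸ N) := by
  have hmap : ∀ a : A, N.map ((a : MulAut Q) : Q →* Q) = N := by
    intro a
    apply le_antisymm
    · rintro _ ⟨x, hx, rfl⟩
      exact hA a a.2 x hx
    · intro x hx
      refine ⟨(a⁻¹ : A).1 x, hA _ (a⁻¹ : A).2 x hx, ?_⟩
      change ((a : MulAut Q) * ((a⁻¹ : A) : MulAut Q)) x = x
      rw [← Subgroup.coe_mul, mul_inv_cancel]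
      rfl
  refine ⟨{ toFun := fun a => QuotientGroup.congr N N (a : MulAut Q) (hmap a), map_one' := ?_, map_mul' := ?_ }, ?_⟩
  · ext x
    induction x using QuotientGroup.induction_on with
    | _ x => rfl
  · intro a b
    ext x
    induction x using QuotientGroup.induction_on with
    | _ x => rfl
  · intro a x
    rfl

theorem t1w {Q : Subgroup P} {A : Set (P → P)} (h : Ctx Q A) (hSE : SE Q A Z2) (hW : Z2 ≤ Q)
    (hfix : ∀ a ∈ A, a u10 ∈ Z1) (hmov : ∃ a ∈ A, a u9 ∉ Z2)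
    {y r : P} (hy : y ∈ normalizer (Q : Set P)) (hyQ : y ∉ Q)
    (hr : r ∈ closure {x | x ∈ Z1 ∨ ∃ a ∈ A, x = a u9}) (hr3 : r ^ 3 ∈ Z1) (hyr : y * r * y⁻¹ * r⁻¹ ∈ Z1)
    (hyv : ∀ a ∈ A, ∃ k : ℕ, ∃ z ∈ Z1, y * a u9 * y⁻¹ = a u9 * r ^ k * z) :
    r ∈ Z2 ∧
    (∀ a ∈ A, a u9 ∉ Z2 → ∀ b ∈ A, ∃ i j : ℕ, ∃ z ∈ Z1, b u9 = a u9 ^ i * u9 ^ j * z) ∧
    (∀ a ∈ A, a u9 ∉ Z2 → ∀ i j : ℕ, ∃ b ∈ A, ∃ k : ℕ, ∃ z ∈ Z1, a u9 ^ i * u9 ^ j = b u9 ^ k * z) ∧
    (∀ n ∈ normalizer (Q : Set P), ∃ k : ℕ, n * y ^ k ∈ Q) := by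
  have hZ : Z1 ≤ Q := fun z hz => h.cent _ fun q _ => Z1_comm hz q
  have h10 : u10 ∈ Q := hZ u10_mem_Z1
  have h9' : u9 ∈ Z2 := ⟨rfl, rfl, rfl, rfl, rfl, rfl, rfl, rfl⟩
  have h9 : u9 ∈ Q := hW h9'
  have hrQ : r ∈ Q := by
    refine (closure_le Q).2 ?_ hr
    rintro x (hx | ⟨a, ha, rfl⟩)
    · exact hZ hx
    · exact h.maps a ha _ h9
  -- `A` preserves `Z1`
  have hAZ : ∀ f ∈ A, ∀ z ∈ Z1, f z ∈ Z1 := by
    intro f hf z hz
    obtain ⟨k, rfl⟩ := mem_Z1_iff.1 hz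
    rw [h.map_pow hf h10]
    exact pow_mem (hfix f hf) k
  have hN : (Z1.subgroupOf Q).Normal := by
    refine ⟨fun z hz g => ?_⟩
    rw [mem_subgroupOf] at hz ⊢
    have h1 : ((g * z * g⁻¹ : Q) : P) = z := by
      change (g : P) * z * (g : P)⁻¹ = z
      rw [← Z1_comm hz g, mul_inv_cancel_right]
    rw [h1]
    exact hz
  have hmaps : ∀ a ∈ autG h, ∀ x ∈ Z1.subgroupOf Q, a x ∈ Z1.subgroupOf Q := by
    rintro a ⟨f, hf, h1⟩ x hx
    rw [mem_subgroupOf] at hx ⊢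
    rw [h1]
    exact hAZ f hf _ hx
  obtain ⟨ρ, hρ⟩ := exists_quot (Z1.subgroupOf Q) (autG h) hmaps
  have hmk : ∀ x y : Q, ((x : Q) : Q ⧸ Z1.subgroupOf Q) = (y : Q ⧸ Z1.subgroupOf Q) ↔ ∃ z ∈ Z1, (y : P) = x * z := by
    intro x y
    rw [QuotientGroup.eq, mem_subgroupOf]
    constructor
    · intro h1
      exact ⟨_, h1, by simp⟩
    · rintro ⟨z, hz, h1⟩
      have h2 : ((x⁻¹ * y : Q) : P) = z := by
        change (x : P)⁻¹ * y = z
        rw [h1, inv_mul_cancel_left]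
      rw [h2]
      exact hz
  set w : Q := ⟨u9, h9⟩ with hw
  set W : Q ⧸ Z1.subgroupOf Q := (w : Q ⧸ Z1.subgroupOf Q) with hWdef
  have hW3 : W ^ 3 = 1 := by
    rw [hWdef, ← QuotientGroup.mk_pow, show w ^ 3 = 1 from Subtype.ext u9_cube, QuotientGroup.mk_one]
  have hac : ∀ (a : autG h) (x : Q), Commute (ρ a W) (x : Q ⧸ Z1.subgroupOf Q) := by
    intro a x
    obtain ⟨x', rfl⟩ := (a : MulAut Q).surjective x
    rw [← hρ]
    have h1 : Commute W (x' : Q ⧸ Z1.subgroupOf Q) := by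
      change W * (x' : Q ⧸ Z1.subgroupOf Q) = (x' : Q ⧸ Z1.subgroupOf Q) * W
      rw [hWdef, ← QuotientGroup.mk_mul, ← QuotientGroup.mk_mul, eq_comm, hmk]
      obtain ⟨z, hz, h2⟩ := u9_comm x'
      exact ⟨z, hz, h2⟩
    exact h1.map (ρ a)
  have hcn : ∀ n ∈ normalizer (Q : Set P), ∃ c : autG h, ∀ x : Q, ((c : MulAut Q) x : P) = n * x * n⁻¹ :=
    fun n hn => exists_aut h (h.conj n hn)
  have hwA : ∀ a : autG h, ∃ f ∈ A, ((a : MulAut Q) w : P) = f u9 := by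
    intro a
    obtain ⟨f, hf, h1⟩ := exists_fun a
    exact ⟨f, hf, h1 w⟩
  have hAw : ∀ f ∈ A, ∃ a : autG h, ((a : MulAut Q) w : P) = f u9 := by
    intro f hf
    obtain ⟨a, ha⟩ := exists_aut h hf
    exact ⟨a, ha w⟩
  have hW2 : ∀ x : Q, (x : P) ∈ Z2 ↔ (x : Q ⧸ Z1.subgroupOf Q) ∈ zpowers W := by
    intro x
    constructor
    · intro hx
      obtain ⟨i, j, hij⟩ := mem_Z2_iff.1 hx
      refine ⟨(i : ℤ), ?_⟩
      change W ^ (i : ℤ) = _
      rw [zpow_natCast, hWdef, ← QuotientGroup.mk_pow, hmk]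
      exact ⟨u10 ^ j, pow_mem u10_mem_Z1 j, hij⟩
    · intro hx
      obtain ⟨k, hk⟩ := exists_nat hW3 hx
      rw [hWdef, ← QuotientGroup.mk_pow, eq_comm, hmk] at hk
      obtain ⟨z, hz, h1⟩ := hk
      rw [h1]
      exact mul_mem (pow_mem h9' k) (Z1_le_Z2 hz)
  obtain ⟨cy, hcy⟩ := hcn y hy
  have hmemB : ∀ n ∈ normalizer (Q : Set P), n ∉ Q → ∀ c : autG h,
      (∀ x : Q, ((c : MulAut Q) x : P) = n * x * n⁻¹) → c ∈ BB h := by
    intro n hn hnQ c hc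
    refine ⟨1, n, hn, hnQ, fun x => ?_⟩
    rw [inv_one, one_mul, mul_one]
    exact hc x
  have hfixW : ∀ n ∈ normalizer (Q : Set P), ∀ c : autG h, (∀ x : Q, ((c : MulAut Q) x : P) = n * x * n⁻¹) →
      ρ c W = W := by
    intro n hn c hc
    rw [hWdef, hρ, eq_comm, hmk]
    obtain ⟨z, hz, h1⟩ := u9_comm n⁻¹
    refine ⟨z, hz, ?_⟩
    rw [hc]
    change n * u9 * n⁻¹ = u9 * z
    rw [mul_assoc, h1]
    group
  obtain ⟨c1, c2, c3, c4⟩ := Cfsg.Agent.H587.TO.transvection_orbit ρ (BB h) (BB_conj h) W hW3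
    (fun a b => by
      have h1 := hac a ((b : MulAut Q) w)
      rwa [← hρ] at h1)
    (by
      intro u hu a b ha hb
      have key : ∀ d : autG h, ρ (u * d) W ∈ zpowers (ρ d W) →
          ∀ v : Q, (v : P) ∈ Z2 → ∃ v' : Q, (v' : P) ∈ Z2 ∧ (u : MulAut Q) ((d : MulAut Q) v) = (d : MulAut Q) v' := by
        intro d hd v hv
        refine ⟨((d⁻¹ : autG h) : MulAut Q) ((u : MulAut Q) ((d : MulAut Q) v)), ?_, ?_⟩
        · rw [hW2]
          have h1 := (hW2 v).1 hv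
          obtain ⟨j, hj⟩ := h1
          obtain ⟨k, hk⟩ := hd
          change W ^ j = _ at hj
          change (ρ d W) ^ k = _ at hk
          refine ⟨k * j, ?_⟩
          change W ^ (k * j) = _
          rw [← hρ, ← hρ, ← hρ, ← hj, map_zpow, map_zpow]
          rw [map_mul, MulAut.mul_apply] at hk
          rw [← hk, map_zpow, map_zpow]
          have h2 : ρ d⁻¹ (ρ d W) = W := by
            rw [← MulAut.mul_apply, ← map_mul, inv_mul_cancel, map_one, MulAut.one_apply]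
          rw [h2, zpow_mul]
        · change _ = ((d : MulAut Q) * ((d⁻¹ : autG h) : MulAut Q)) ((u : MulAut Q) ((d : MulAut Q) v))
          rw [← Subgroup.coe_mul, mul_inv_cancel]
          rfl
      obtain ⟨v', hv', h2⟩ := BB_se h hSE hu hW (key b hb) (key a ha) w h9'
      obtain ⟨k, hk⟩ := (hW2 v').1 hv'
      refine ⟨k, ?_⟩
      change (ρ a W) ^ k = ρ b W
      change W ^ k = _ at hk
      rw [← map_zpow, hk, hρ, hWdef, hρ, h2])
    (by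
      obtain ⟨f, hf, h1⟩ := hmov
      obtain ⟨a, ha⟩ := hAw f hf
      refine ⟨a, fun h2 => h1 ?_⟩
      rw [← ha, hW2, ← hρ]
      exact h2)
    cy (hmemB y hy hyQ cy hcy) (hfixW y hy cy hcy)
    ((⟨r, hrQ⟩ : Q) : Q ⧸ Z1.subgroupOf Q)
    (by
      rw [← QuotientGroup.mk_pow, ← QuotientGroup.mk_one, eq_comm, hmk]
      exact ⟨r ^ 3, hr3, by simp⟩)
    (by
      have h1 : ∀ x ∈ closure {x | x ∈ Z1 ∨ ∃ a ∈ A, x = a u9}, ∀ hx : x ∈ Q,
          ((⟨x, hx⟩ : Q) : Q ⧸ Z1.subgroupOf Q) ∈ closure (Set.range fun a : autG h => ρ a W) := by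
        intro x hx
        induction hx using closure_induction with
        | mem x hx =>
          intro hxQ
          rcases hx with hx | ⟨f, hf, rfl⟩
          · have h2 : ((⟨x, hxQ⟩ : Q) : Q ⧸ Z1.subgroupOf Q) = 1 := by
              rw [← QuotientGroup.mk_one, eq_comm, hmk]
              exact ⟨x, hx, by simp⟩
            rw [h2]
            exact one_mem _
          · obtain ⟨a, ha⟩ := hAw f hf
            refine subset_closure ⟨a, ?_⟩
            change ρ a W = _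
            rw [hWdef, hρ]
            congr 1
            exact Subtype.ext ha
        | one => intro hx; exact one_mem _
        | mul x y hx hy ihx ihy =>
          intro hxy
          have hcl : closure {x | x ∈ Z1 ∨ ∃ a ∈ A, x = a u9} ≤ Q := by
            refine (closure_le Q).2 ?_
            rintro x (hx | ⟨a, ha, rfl⟩)
            · exact hZ hx
            · exact h.maps a ha _ h9
          exact mul_mem (ihx (hcl hx)) (ihy (hcl hy))
        | inv x hx ih =>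
          intro hxQ
          have h3 := inv_mem (ih (by simpa using inv_mem hxQ))
          exact h3
      exact h1 r hr hrQ)
    (by
      rw [hρ, eq_comm, hmk]
      refine ⟨_, hyr, ?_⟩
      rw [hcy]
      change y * r * y⁻¹ = r * (y * r * y⁻¹ * r⁻¹)
      rw [← Z1_comm hyr r]
      group)
    (by
      intro a
      obtain ⟨f, hf, h1⟩ := hwA a
      obtain ⟨k, z, hz, hk⟩ := hyv f hf
      refine ⟨k, ?_⟩
      rw [map_mul, MulAut.mul_apply, hWdef, hρ, hρ, ← QuotientGroup.mk_pow, ← QuotientGroup.mk_mul, eq_comm, hmk]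
      refine ⟨z, hz, ?_⟩
      rw [hcy, h1, hk]
      change _ = ((a : MulAut Q) w : P) * r ^ k * z
      rw [h1])
  refine ⟨(hW2 ⟨r, hrQ⟩).2 c1, ?_, ?_, ?_⟩
  · intro f hf hfZ g hg
    obtain ⟨a, ha⟩ := hAw f hf
    obtain ⟨b, hb⟩ := hAw g hg
    obtain ⟨i, j, hij⟩ := c2 _ ⟨a, rfl⟩ (fun h2 => hfZ (by rw [← ha, hW2, ← hρ]; exact h2)) b
    change ρ b W = ρ a W ^ i * W ^ j at hij
    rw [hWdef, hρ, hρ, ← QuotientGroup.mk_pow, ← QuotientGroup.mk_pow, ← QuotientGroup.mk_mul, eq_comm, hmk] at hij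
    obtain ⟨z, hz, h3⟩ := hij
    refine ⟨i, j, z, hz, ?_⟩
    rw [← ha, ← hb]
    exact h3
  · intro f hf hfZ i j
    obtain ⟨a, ha⟩ := hAw f hf
    obtain ⟨b, hb⟩ := c3 _ ⟨a, rfl⟩ (fun h2 => hfZ (by rw [← ha, hW2, ← hρ]; exact h2)) i j
    obtain ⟨g, hg, h1⟩ := hwA b
    have h4 : (ρ b W) ^ 3 = 1 := by
      rw [← map_pow, hW3, map_one]
    obtain ⟨k, hk⟩ := exists_nat h4 hb
    change ρ a W ^ i * W ^ j = _ at hk
    rw [hWdef, hρ, hρ, ← QuotientGroup.mk_pow, ← QuotientGroup.mk_pow, ← QuotientGroup.mk_pow,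
      ← QuotientGroup.mk_mul, eq_comm, hmk] at hk
    obtain ⟨z, hz, h3⟩ := hk
    refine ⟨g, hg, k, z, hz, ?_⟩
    rw [← ha, ← h1]
    exact h3
  · intro n hn
    obtain ⟨cn, hcn'⟩ := hcn n hn
    obtain ⟨k, hk⟩ := c4 cn (by rw [hfixW n hn cn hcn']; exact mem_zpowers W)
    refine ⟨k, ?_⟩
    by_contra h2
    apply hk
    refine hmemB (n * y ^ k) (mul_mem hn (pow_mem hy k)) h2 _ fun x => ?_
    have h5 : ∀ (j : ℕ) (x : Q), (((cy ^ j : autG h) : MulAut Q) x : P) = y ^ j * x * (y ^ j)⁻¹ := by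
      intro j
      induction j with
      | zero => intro x; simp
      | succ j ih =>
        intro x
        rw [pow_succ, Subgroup.coe_mul, MulAut.mul_apply, ih, hcy]
        group
    rw [Subgroup.coe_mul, MulAut.mul_apply, hcn', h5]
    group

end Cfsg.Agent.H38.ThT1
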